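/-
A small kit for isomorphisms of concrete finite groups: a common subgroup of a permutation group inside
the images of two homomorphisms, with the order of the subgroup certified by an explicit list of words.
-/
import Mathlib
import Cfsg.Agent.Lib.Compute.Basic

set_option autoImplicit false

namespace Cfsg.Agent.Lib.ChevSmall

open Cfsg.Agent.Lib.Compute

/-- A homomorphism from a finite group whose image contains a subgroup of at least its order. -/
theorem inj_of_range {Z P : Type*} [Group Z] [Group P] [Finite Z] (f : Z →* P) (A : Subgroup P)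
    (hA : A ≤ f.range) (hc : Nat.card Z ≤ Nat.card A) : Function.Injective f ∧ f.range = A := by
  haveI : Finite f.range := Finite.of_surjective f.rangeRestrict f.rangeRestrict_surjective
  have h1 : Nat.card f.range ≤ Nat.card Z :=
    Nat.card_le_card_of_surjective f.rangeRestrict f.rangeRestrict_surjective
  have h2 : f.range = A := (Subgroup.eq_of_le_of_card_ge hA (h1.trans hc)).symm
  refine ⟨?_, h2⟩
  have hb : Function.Bijective f.rangeRestrict := by
    apply Function.Surjective.bijective_of_nat_card_le f.rangeRestrict_surjective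
    rw [h2]
    exact hc
  intro a b hab
  apply hb.1
  exact Subtype.ext hab

/-- Two finite groups mapping onto a common subgroup of size at least their orders are isomorphic. -/
theorem iso_of_common {X Y P : Type*} [Group X] [Group Y] [Group P] [Finite X] [Finite Y]
    (φ : X →* P) (ψ : Y →* P) (A : Subgroup P) (hX : A ≤ φ.range) (hY : A ≤ ψ.range)
    (cX : Nat.card X ≤ Nat.card A) (cY : Nat.card Y ≤ Nat.card A) : Nonempty (X ≃* Y) := by
  obtain ⟨i1, r1⟩ := inj_of_range φ A hX cX
  obtain ⟨i2, r2⟩ := inj_of_range ψ A hY cY
  exact ⟨(MonoidHom.ofInjective i1).trans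
    ((MulEquiv.subgroupCongr (r1.trans r2.symm)).trans (MonoidHom.ofInjective i2).symm)⟩

/-- Application of a word to a point, letter tables given by `T`. -/
noncomputable def wApply (T : ℕ → ℕ → ℕ) (w : List ℕ) (x : ℕ) : ℕ :=
  List.rec x (fun a _ ih => T a ih) w

@[simp] theorem wApply_nil (T : ℕ → ℕ → ℕ) (x : ℕ) : wApply T [] x = x := rfl
@[simp] theorem wApply_cons (T : ℕ → ℕ → ℕ) (a : ℕ) (w : List ℕ) (x : ℕ) :
    wApply T (a :: w) x = T a (wApply T w x) := rfl

/-- The digits of a code in base `B`, least significant first; each digit `d` stands for the letter `d - 1`. -/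
noncomputable def decodeW (B : ℕ) (fuel c : ℕ) : List ℕ :=
  Nat.rec (fun _ => []) (fun _ ih c => bcond (Nat.beq c 0) [] (Nat.pred (Nat.mod c B) :: ih (Nat.div c B))) fuel c

theorem decodeW_lt {fuel c a : ℕ} (h : a ∈ decodeW 3 fuel c) : a < 2 := by
  induction fuel generalizing c with
  | zero => simp [decodeW] at h
  | succ f ih =>
    have h1 : decodeW 3 (f + 1) c = bcond (Nat.beq c 0) [] (Nat.pred (Nat.mod c 3) :: decodeW 3 f (Nat.div c 3)) := rfl
    rw [h1] at h
    cases hc : Nat.beq c 0
    · rw [hc] at h
      simp only [bcond_false, List.mem_cons] at h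
      rcases h with h | h
      · have : Nat.mod c 3 < 3 := Nat.mod_lt _ (by norm_num)
        subst h
        show Nat.pred (Nat.mod c 3) < 2
        rw [Nat.pred_eq_sub_one]
        omega
      · exact ih h
    · rw [hc] at h
      simp at h

/-- The key of a word on a list of base points. -/
noncomputable def numKey (T : ℕ → ℕ → ℕ) (n : ℕ) (base : List ℕ) (w : List ℕ) : ℕ :=
  List.rec 0 (fun b _ ih => Nat.add (Nat.mul ih n) (wApply T w b)) base

theorem numKey_congr {T : ℕ → ℕ → ℕ} {n : ℕ} {base : List ℕ} {w w' : List ℕ}
    (h : ∀ b ∈ base, wApply T w b = wApply T w' b) : numKey T n base w = numKey T n base w' := by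
  induction base with
  | nil => rfl
  | cons b l ih =>
    show (numKey T n l w) * n + wApply T w b = (numKey T n l w') * n + wApply T w' b
    rw [ih (fun c hc => h c (List.mem_cons_of_mem _ hc)), h b List.mem_cons_self]

/-- A certificate for a lower bound of the order of a subgroup of a symmetric group: `N` words in the
letters, with strictly increasing keys. -/
theorem card_ge_of_words {n k N : ℕ} (g : ℕ → Equiv.Perm (Fin n)) (T : ℕ → ℕ → ℕ)
    (hT : ∀ a, a < k → ∀ x : Fin n, ((g a x : Fin n) : ℕ) = T a x)
    (A : Subgroup (Equiv.Perm (Fin n))) (hA : ∀ a, a < k → g a ∈ A)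
    (word : ℕ → List ℕ) (hlet : ∀ i, i < N → ∀ a ∈ word i, a < k)
    (base : List ℕ) (hbase : ∀ b ∈ base, b < n)
    (hmono : ∀ i, i + 1 < N → numKey T n base (word i) < numKey T n base (word (i + 1))) :
    N ≤ Nat.card A := by
  have happ : ∀ (w : List ℕ), (∀ a ∈ w, a < k) → ∀ x : Fin n,
      ((((w.map g).prod x : Fin n)) : ℕ) = wApply T w x := by
    intro w
    induction w with
    | nil => intro _ x; rfl
    | cons a w ih =>
      intro h x
      rw [List.map_cons, List.prod_cons, Equiv.Perm.mul_apply, hT a (h a List.mem_cons_self),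
        ih (fun b hb => h b (List.mem_cons_of_mem _ hb)) x]
      rfl
  have hmem : ∀ (w : List ℕ), (∀ a ∈ w, a < k) → (w.map g).prod ∈ A := by
    intro w
    induction w with
    | nil => intro _; simp
    | cons a w ih =>
      intro h
      rw [List.map_cons, List.prod_cons]
      exact A.mul_mem (hA a (h a List.mem_cons_self)) (ih (fun b hb => h b (List.mem_cons_of_mem _ hb)))
  have hstrict : ∀ i j, i < j → j < N → numKey T n base (word i) < numKey T n base (word j) := by
    intro i j hij
    induction j, hij using Nat.le_induction with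
    | base => intro h; exact hmono i h
    | succ j hj ih =>
      intro h
      exact (ih (by omega)).trans (hmono j h)
  let f : Fin N → A := fun i => ⟨((word i).map g).prod, hmem _ (hlet i i.2)⟩
  have hf : Function.Injective f := by
    intro i j hij
    have h0 : ((word i).map g).prod = ((word j).map g).prod := congrArg Subtype.val hij
    have hk : numKey T n base (word i) = numKey T n base (word j) := by
      apply numKey_congr
      intro b hb
      have hb' := hbase b hb
      have h1 := happ (word i) (hlet i i.2) ⟨b, hb'⟩
      have h2 := happ (word j) (hlet j j.2) ⟨b, hb'⟩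
      rw [h0] at h1
      exact h1.symm.trans h2
    rcases lt_trichotomy (i : ℕ) j with h | h | h
    · exact absurd hk (hstrict _ _ h j.2).ne
    · exact Fin.ext h
    · exact absurd hk.symm (hstrict _ _ h i.2).ne
  have := Nat.card_le_card_of_injective f hf
  simpa using this

/-- Projective version of a permutation representation from a stable family of vectors. -/
theorem exists_proj_rep {G K V : Type*} [Group G] [Field K] [AddCommGroup V] [Module K V]
    (act : G →* Equiv.Perm V) (hlin : ∀ (g : G) (c : K) (v : V), act g (c • v) = c • act g v)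
    {n : ℕ} (vec : Fin n → V)
    (inj : ∀ (i j : Fin n) (c : K), vec i = c • vec j → i = j)
    (stable : ∀ g i, ∃ (c : K) (j : Fin n), c ≠ 0 ∧ act g (vec i) = c • vec j) :
    ∃ ρ : G →* Equiv.Perm (Fin n), ∀ g i, ∃ c : K, c ≠ 0 ∧ act g (vec i) = c • vec (ρ g i) := by
  choose C F hC hF using stable
  have h1 : ∀ i, F 1 i = i := fun i => by
    have h := hF 1 i
    rw [map_one, Equiv.Perm.one_apply] at h
    exact (inj _ _ _ h).symm
  have h2 : ∀ g h i, F (g * h) i = F g (F h i) := fun g h i => by
    have e1 := hF (g * h) i
    rw [map_mul, Equiv.Perm.mul_apply, hF h i, hlin, hF g (F h i)] at e1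
    have e2 : vec (F (g * h) i) = ((C (g * h) i)⁻¹ * (C h i * C g (F h i))) • vec (F g (F h i)) := by
      rw [mul_smul, mul_smul, e1, inv_smul_smul₀ (hC _ _)]
    exact inj _ _ _ e2
  let f : G →* Function.End (Fin n) :=
    { toFun := fun g => F g
      map_one' := by
        funext i
        exact h1 i
      map_mul' := fun g h => by
        funext i
        exact h2 g h i }
  refine ⟨f.toHomPerm, fun g i => ⟨C g i, hC g i, ?_⟩⟩
  exact hF g i

end Cfsg.Agent.Lib.ChevSmall
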