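/-
Transport of Chevalley groups along field isomorphisms, and finite permutation actions on row vectors.
-/
import Mathlib
import Cfsg.Prelude.Def_Chevalley

set_option autoImplicit false

namespace Cfsg.Agent.Lib.ChevSmall

open Cfsg.Lie

section

variable {F K : Type*} [Field F] [Field K] (D : ChevalleyDatum)

/-- Entrywise application of a field homomorphism to a root element. -/
lemma xMat_map' (f : F →+* K) (r : Fin D.nroots) (t : F) :
    (D.xMat F r t).map f = D.xMat K r (f t) := by
  ext row col
  rcases col with i | s <;> rcases row with i' | u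
  · simp only [Matrix.map_apply, ChevalleyDatum.xMat, Matrix.of_apply]
    split_ifs <;> simp
  · simp only [Matrix.map_apply, ChevalleyDatum.xMat, Matrix.of_apply]
    split_ifs <;> simp
  · simp only [Matrix.map_apply, ChevalleyDatum.xMat, Matrix.of_apply]
    split_ifs <;> simp
  · simp only [Matrix.map_apply, ChevalleyDatum.xMat, Matrix.of_apply]
    split_ifs <;> simp [map_list_sum, List.map_map, Function.comp_def]

/-- The map on `GL` given by a field isomorphism. -/
noncomputable def glMap' (f : F ≃+* K) : GL D.Idx F ≃* GL D.Idx K :=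
  Units.mapEquiv (RingEquiv.mapMatrix (m := D.Idx) f).toMulEquiv

@[simp] lemma glMap'_coe (f : F ≃+* K) (g : GL D.Idx F) :
    ((glMap' D f g : GL D.Idx K) : Matrix D.Idx D.Idx K) = (g : Matrix D.Idx D.Idx F).map f := rfl

lemma group_map_le' (f : F ≃+* K) : (D.group F).map (glMap' D f).toMonoidHom ≤ D.group K := by
  rw [Subgroup.map_le_iff_le_comap]
  refine (Subgroup.closure_le _).2 ?_
  rintro g ⟨r, t, hg⟩
  refine Subgroup.subset_closure ⟨r, f t, ?_⟩
  show ((glMap' D f g : GL D.Idx K) : Matrix D.Idx D.Idx K) = _
  rw [glMap'_coe, hg]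
  exact xMat_map' D f.toRingHom r t

lemma glMap'_symm (f : F ≃+* K) (g : GL D.Idx K) : glMap' D f (glMap' D f.symm g) = g := by
  apply Units.ext
  rw [glMap'_coe, glMap'_coe]
  ext i j
  simp

lemma group_map' (f : F ≃+* K) : (D.group F).map (glMap' D f).toMonoidHom = D.group K := by
  apply le_antisymm (group_map_le' D f)
  intro g hg
  refine ⟨glMap' D f.symm g, ?_, glMap'_symm D f g⟩
  exact group_map_le' D f.symm ⟨g, hg, rfl⟩

/-- Chevalley groups over isomorphic fields are isomorphic, by the entrywise map. -/
noncomputable def groupEquiv (f : F ≃+* K) : D.group F ≃* D.group K :=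
  ((glMap' D f).subgroupMap (D.group F)).trans (MulEquiv.subgroupCongr (group_map' D f))

end

section act

variable {n R : Type*} [Fintype n] [DecidableEq n] [CommRing R]

/-- The action of `GL` on row vectors: `g • w = w g⁻¹`. -/
def rowAct : GL n R →* Equiv.Perm (n → R) where
  toFun g :=
    { toFun := fun w => Matrix.vecMul w ((g⁻¹ : GL n R) : Matrix n n R)
      invFun := fun w => Matrix.vecMul w (g : Matrix n n R)
      left_inv := fun w => by
        simp only [Matrix.vecMul_vecMul]
        rw [← Units.val_mul, inv_mul_cancel, Units.val_one, Matrix.vecMul_one]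
      right_inv := fun w => by
        simp only [Matrix.vecMul_vecMul]
        rw [← Units.val_mul, mul_inv_cancel, Units.val_one, Matrix.vecMul_one] }
  map_one' := by
    ext w i
    simp
  map_mul' g h := by
    ext w i
    simp only [Equiv.coe_fn_mk, Equiv.Perm.coe_mul, Function.comp_apply, mul_inv_rev, Units.val_mul,
      Matrix.vecMul_vecMul]

lemma rowAct_apply (g : GL n R) (w : n → R) :
    rowAct g w = Matrix.vecMul w ((g⁻¹ : GL n R) : Matrix n n R) := rfl

lemma rowAct_eq_of (g : GL n R) {v w : n → R} (h : Matrix.vecMul w (g : Matrix n n R) = v) :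
    rowAct g v = w := by
  rw [rowAct_apply, ← h, Matrix.vecMul_vecMul, ← Units.val_mul, mul_inv_cancel, Units.val_one,
    Matrix.vecMul_one]

end act

/-- Stability of a finite family under a closure. -/
theorem stable_closure {G V : Type*} [Group G] (act : G →* Equiv.Perm V) {n : ℕ} (vec : Fin n → V)
    (inj : Function.Injective vec) (S : Set G)
    (h : ∀ g ∈ S, ∀ i, ∃ j, act g (vec i) = vec j) :
    ∀ g ∈ Subgroup.closure S, ∀ i, ∃ j, act g (vec i) = vec j := by
  intro g hg
  induction hg using Subgroup.closure_induction with
  | mem x hx => exact h x hx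
  | one => exact fun i => ⟨i, by simp⟩
  | mul x y _ _ hx hy =>
    intro i
    obtain ⟨j, hj⟩ := hy i
    obtain ⟨k, hk⟩ := hx j
    exact ⟨k, by rw [map_mul, Equiv.Perm.mul_apply, hj, hk]⟩
  | inv x _ hx =>
    intro i
    choose F hF using hx
    have hinj : Function.Injective F := fun a b hab => inj (by
      have h1 := hF a
      have h2 := hF b
      rw [hab, ← h2] at h1
      exact (act x).injective h1)
    obtain ⟨j, hj⟩ := (Finite.injective_iff_surjective.1 hinj) i
    refine ⟨j, ?_⟩
    rw [map_inv, Equiv.Perm.inv_eq_iff_eq, hF j, hj]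

/-- A homomorphism from a family of stable vectors. -/
theorem exists_perm_rep' {G V : Type*} [Group G] (act : G →* Equiv.Perm V) {n : ℕ} (vec : Fin n → V)
    (inj : Function.Injective vec) (stable : ∀ g i, ∃ j, act g (vec i) = vec j) :
    ∃ ρ : G →* Equiv.Perm (Fin n), ∀ g i, act g (vec i) = vec (ρ g i) := by
  choose F hF using stable
  have h1 : ∀ i, F 1 i = i := fun i => inj (by rw [← hF]; simp)
  have h2 : ∀ g h i, F (g * h) i = F g (F h i) := fun g h i => inj (by
    rw [← hF, ← hF, ← hF, map_mul, Equiv.Perm.mul_apply])
  let f : G →* Function.End (Fin n) :=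
    { toFun := fun g => F g
      map_one' := by
        funext i
        exact h1 i
      map_mul' := fun g h => by
        funext i
        exact h2 g h i }
  refine ⟨f.toHomPerm, fun g i => ?_⟩
  exact hF g i

/-- Derived groups along an isomorphism. -/
def commEquiv {A B : Type*} [Group A] [Group B] (e : A ≃* B) : ↥(commutator A) ≃* ↥(commutator B) :=
  (MulEquiv.subgroupMap e (commutator A)).trans (MulEquiv.subgroupCongr (by
    rw [commutator_def, commutator_def, Subgroup.map_commutator,
      Subgroup.map_top_of_surjective _ e.surjective]))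

/-- A group with an order two quotient has a derived group of at most half the order. -/
theorem card_commutator_le_of_sign {G : Type*} [Group G] [Finite G] (s : G →* ℤˣ) {x : G} (hx : s x = -1) :
    2 * Nat.card ↥(commutator G) ≤ Nat.card G := by
  have hs : Function.Surjective s := by
    intro u
    rcases Int.units_eq_one_or u with rfl | rfl
    · exact ⟨1, map_one s⟩
    · exact ⟨x, hx⟩
  have h1 : commutator G ≤ s.ker := Abelianization.commutator_subset_ker s
  have h2 : Nat.card ↥(commutator G) ≤ Nat.card s.ker := Subgroup.card_le_of_le h1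
  have h3 : Nat.card s.ker * s.ker.index = Nat.card G := Subgroup.card_mul_index _
  have h4 : s.ker.index = Nat.card s.range := Subgroup.index_ker s
  have h5 : s.range = ⊤ := MonoidHom.range_eq_top.2 hs
  have h6 : Nat.card s.range = 2 := by
    rw [h5, Subgroup.card_top, Nat.card_eq_fintype_card, Fintype.card_units_int]
  rw [h4, h6] at h3
  nlinarith

end Cfsg.Agent.Lib.ChevSmall
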